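import Cfsg.Agent.GW.Pairs
import Cfsg.Agent.BG.TI
/-!
Counting pairs of conjugate involutions against fixed points of a doubly transitive action (`sum_pc`, `two_count`),
bounds for `pcN` and an arithmetic lemma on pairwise coprime divisors (`sum_coprime`, `sum_coprime'`).
-/

set_option autoImplicit false
set_option linter.unusedSectionVars false
set_option linter.unusedVariables false

namespace Cfsg.Agent.ReeW
open Subgroup MulAction Finset Cfsg.Agent.BG Cfsg.Agent.GW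
open scoped _root_.Classical

variable {G : Type*} [Group G] [Fintype G] {t x : G}

/-- The class of `t`. -/
noncomputable def cI (t : G) : Finset G := univ.filter (IsConj t)

/-- The number of fixed points. -/
noncomputable def fx (Ω : Type*) [Fintype Ω] [MulAction G Ω] (g : G) : ℕ := (univ.filter fun ω : Ω => g • ω = ω).card

theorem mem_cI : x ∈ cI t ↔ IsConj t x := by simp [cI]

theorem card_cI : (cI t).card * #C1[t] = Nat.card G := by
  have := ncard_classSupp_mul (A := {t}) (D := (⊤ : Subgroup G)) (n := #C1[t]) (by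
    rintro a rfl
    rw [show {g | g ∈ (⊤ : Subgroup G) ∧ g * a * g⁻¹ ∈ ({a} : Set G)} = (C1[a] : Set G) from
      Set.ext fun g => by simp [mem_cent1, mul_inv_eq_iff_eq_mul]]
    rfl)
  rw [Set.ncard_singleton, one_mul, card_top] at this
  rw [← this, ← Set.ncard_coe_finset]
  congr 2
  ext y
  simp [cI, mem_classSupp, isConj_iff, eq_comm]

theorem sum_pc (f : G → ℕ) : ∑ g, pcN t t g * f g = ∑ u ∈ cI t, ∑ v ∈ cI t, f (u * v) := by
  have k : ∀ g, pcN t t g = ∑ u ∈ cI t, if u⁻¹ * g ∈ cI t then 1 else 0 := fun g => by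
    rw [← card_filter, pcN, ← Set.ncard_coe_finset]
    congr 1; ext u; simp [cI]
  simp only [k, sum_mul]
  rw [sum_comm]
  refine sum_congr rfl fun u _ => ?_
  rw [← Equiv.sum_comp (Equiv.mulLeft u)]
  simp [← sum_filter, filter_mem_eq_inter]

theorem fx_conj {Ω : Type*} [Fintype Ω] [MulAction G Ω] (g x : G) : fx Ω (g * x * g⁻¹) = fx Ω x := by
  symm
  refine card_bij (fun ω _ => g • ω) (fun ω h => ?_) (fun a _ b _ h => by simpa using h) fun b hb => ⟨g⁻¹ • b, ?_, by simp⟩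
  · simp only [mem_filter, mem_univ, true_and] at h ⊢
    rw [mul_smul, mul_smul, inv_smul_smul, h]
  · simp only [mem_filter, mem_univ, true_and] at hb ⊢
    rw [mul_smul, mul_smul] at hb
    exact (smul_eq_iff_eq_inv_smul g).1 hb

theorem two_count {Ω : Type*} [Fintype Ω] [MulAction G Ω] (h : IsMultiplyPretransitive G Ω 2) (tt : t * t = 1)
    {a b : Ω} (hab : a ≠ b) {N : ℕ} (hN : Fintype.card Ω = N + 1) {d : ℕ}
    (hd : ((cI t).filter fun u => u • a = a).card = d) :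
    ∃ c, d + N * c = (cI t).card ∧ ∑ g, pcN t t g * fx Ω g = (N + 1) * (d ^ 2 + N * c ^ 2) ∧
      fx Ω t * (cI t).card = (N + 1) * d := by
  rw [is_two_pretransitive_iff] at h
  let mm : Ω → Ω → ℕ := fun ω β => ((cI t).filter fun u => u • ω = β).card
  have inv : ∀ (g : G) ω β, mm (g • ω) (g • β) = mm ω β := fun g ω β => by
    symm
    refine card_bij (fun u _ => g * u * g⁻¹) (fun u h => ?_) (fun a _ b _ h => by simpa using h)
      fun u hu => ⟨g⁻¹ * u * g⁻¹⁻¹, ?_, by group⟩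
    · simp only [mem_filter, mem_cI] at h ⊢
      exact ⟨h.1.trans (isConj_iff.2 ⟨g, rfl⟩), by rw [mul_smul, mul_smul, inv_smul_smul, h.2]⟩
    · simp only [mem_filter, mem_cI] at hu ⊢
      exact ⟨hu.1.trans (isConj_iff.2 ⟨g⁻¹, rfl⟩), by rw [mul_smul, mul_smul, inv_inv, hu.2, inv_smul_smul]⟩
  have e1 : ∀ ω, mm ω ω = d := fun ω => by
    obtain ⟨β, hβ⟩ : ∃ β, ω ≠ β := by
      by_cases r : ω = a
      exacts [⟨b, r ▸ hab⟩, ⟨a, r⟩]
    obtain ⟨g, rfl, -⟩ := h hab hβ
    rw [inv]; exact hd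
  have e2 : ∀ ω β, ω ≠ β → mm ω β = mm a b := fun ω β r => by
    obtain ⟨g, rfl, rfl⟩ := h hab r
    exact inv g a b
  have sm : ∀ (F : ℕ → ℕ) ω, ∑ β, F (mm ω β) = F d + N * F (mm a b) := fun F ω => by
    rw [← add_sum_erase _ _ (mem_univ ω), e1, sum_congr rfl fun β hβ => by rw [e2 ω β (ne_of_mem_erase hβ).symm],
      sum_const, card_erase_of_mem (mem_univ _), card_univ, hN]
    simp
  refine ⟨mm a b, ?_, ?_, ?_⟩
  · rw [card_eq_sum_card_fiberwise (f := fun u => u • a) (t := univ) (fun _ _ => mem_univ _)]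
    exact (sm id a).symm
  · rw [sum_pc, ← hN, ← card_univ, ← smul_eq_mul, ← sum_const, sum_congr rfl fun ω _ => (sm (· ^ 2) ω).symm]
    have k : ∀ u ∈ cI t, ∀ v, fx Ω (u * v) =
        ∑ ω : Ω, ∑ β : Ω, (if u • ω = β then 1 else 0) * (if v • ω = β then 1 else 0) := fun u hu v => by
      obtain ⟨g, hg⟩ := isConj_iff.1 (mem_cI.1 hu)
      have uu : u⁻¹ = u := inv_eq_of_mul_eq_one_left (by rw [← hg, conj_mul, tt]; group)
      rw [fx, card_filter]
      refine sum_congr rfl fun ω _ => ?_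
      rw [sum_eq_single (u • ω) (fun β _ r => by rw [if_neg r.symm, zero_mul]) (by simp), if_pos rfl, one_mul]
      simp only [mul_smul, smul_eq_iff_eq_inv_smul u, uu]
    rw [sum_congr rfl fun u hu => sum_congr rfl fun v _ => k u hu v]
    simp only [mm, card_filter, sq, sum_mul_sum]
    rw [sum_congr rfl fun u _ => sum_comm, sum_comm]
    refine sum_congr rfl fun ω _ => ?_
    rw [sum_congr rfl fun u _ => sum_comm, sum_comm]
  · rw [mul_comm, ← smul_eq_mul, ← sum_const, sum_congr rfl fun u hu => show fx Ω t = fx Ω u by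
      obtain ⟨g, rfl⟩ := isConj_iff.1 (mem_cI.1 hu); rw [fx_conj]]
    simp only [fx, card_filter]
    rw [sum_comm, sum_congr rfl fun ω _ => show _ = d by rw [← e1 ω]; simp only [mm, card_filter]]
    simp [hN]

theorem inv_of_pc (tt : t * t = 1) {u : G} (h : IsConj t u ∧ IsConj t (u⁻¹ * x)) :
    u * u = 1 ∧ u * x * u⁻¹ = x⁻¹ := by
  have k : ∀ v, IsConj t v → v * v = 1 := fun v hv => by
    obtain ⟨g, rfl⟩ := isConj_iff.1 hv
    rw [conj_mul, tt]; group
  have a := k _ h.1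
  have b := k _ h.2
  have uu : u⁻¹ = u := inv_eq_of_mul_eq_one_left a
  rw [uu] at b ⊢
  exact ⟨a, eq_inv_of_mul_eq_one_left (by simpa [mul_assoc] using b)⟩

theorem pcN_le (tt : t * t = 1) : pcN t t x ≤ #C1[x] := by
  rcases Set.eq_empty_or_nonempty {u | IsConj t u ∧ IsConj t (u⁻¹ * x)} with r | ⟨u, hu⟩
  · rw [pcN, r]; simp
  refine Set.ncard_le_ncard_of_injOn (t := (C1[x] : Set G)) (fun v => u * v) (fun v hv => mem_cent1.2 ?_)
    fun _ _ _ _ h => mul_left_cancel h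
  have a := (inv_of_pc tt hu).2
  have b := (inv_of_pc tt hv).2
  have : u * v * x * (u * v)⁻¹ = x := by
    calc _ = u * (v * x * v⁻¹) * u⁻¹ := by group
      _ = (u * x * u⁻¹)⁻¹ := by rw [b]; group
      _ = x := by rw [a, inv_inv]
  exact mul_inv_eq_iff_eq_mul.1 this

theorem le_pcN (cls : ∀ x, orderOf x = 2 → IsConj t x) {H : Subgroup G} {w : G} (ww : w * w = 1) (wH : w ∉ H)
    (hi : ∀ y ∈ H, w * y * w⁻¹ = y⁻¹) (hx : x ∈ H) : #H ≤ pcN t t x := by
  have k : ∀ y ∈ H, IsConj t (w * y) := fun y hy => cls _ (orderOf_eq_prime (by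
    have := hi y hy
    rw [inv_eq_of_mul_eq_one_left ww] at this
    rw [pow_two, ← mul_assoc, this, inv_mul_cancel]) fun e => wH (by rw [eq_inv_of_mul_eq_one_left e]; exact inv_mem hy))
  refine Set.ncard_le_ncard_of_injOn (s := (H : Set G)) (fun v => w * v) (fun v hv => ⟨k v hv, ?_⟩)
    fun _ _ _ _ h => mul_left_cancel h
  have : (w * v)⁻¹ = w * v := by
    have := hi v hv
    rw [inv_eq_of_mul_eq_one_left ww] at this
    rw [mul_inv_rev, ← this, inv_eq_of_mul_eq_one_left ww, mul_assoc, ww, mul_one]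
  rw [this, mul_assoc]
  exact k _ (mul_mem hv hx)

theorem sum_coprime (A : Finset ℕ) (hp : ∀ a ∈ A, ∀ b ∈ A, a ≠ b → a.Coprime b) :
    ∀ N, 0 < N → (∀ a ∈ A, a ∣ N) → ∑ a ∈ A, (a - 1) ≤ N - 1 := by
  induction A using Finset.induction_on with
  | empty => simp
  | insert a A ha ih =>
    intro N N0 hd
    obtain ⟨c, rfl⟩ := hd a (mem_insert_self _ _)
    have := ih (fun x hx y hy => hp x (mem_insert_of_mem hx) y (mem_insert_of_mem hy)) c (Nat.pos_of_mul_pos_left N0)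
      fun x hx => (hp x (mem_insert_of_mem hx) a (mem_insert_self _ _) (by rintro rfl; exact ha hx)).dvd_of_dvd_mul_left
        (hd x (mem_insert_of_mem hx))
    rw [sum_insert ha]
    obtain ⟨a, rfl⟩ := Nat.exists_eq_add_one_of_ne_zero (show a ≠ 0 by rintro rfl; simp at N0)
    obtain ⟨c, rfl⟩ := Nat.exists_eq_add_one_of_ne_zero (show c ≠ 0 by rintro rfl; simp at N0)
    rw [show (a + 1) * (c + 1) - 1 = a * c + a + c by rw [Nat.sub_eq_iff_eq_add N0]; ring]
    omega

theorem sum_coprime' (A : Finset ℕ) (hp : ∀ a ∈ A, ∀ b ∈ A, a ≠ b → a.Coprime b) {N : ℕ} (N1 : 1 < N)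
    (h7 : ∀ d, d ∣ N → d ≠ 1 → 7 ≤ d) (hd : ∀ a ∈ A, a ∣ N) (h1 : ∀ a ∈ A, a ≠ 1) (hN : N ∉ A) :
    3 * ∑ a ∈ A, (a - 1) < N - 1 := by
  rcases A.eq_empty_or_nonempty with rfl | ⟨a, ha⟩
  · simp; omega
  obtain ⟨c, rfl⟩ := hd a ha
  have := sum_coprime (A.erase a) (fun x hx y hy => hp x (mem_of_mem_erase hx) y (mem_of_mem_erase hy)) c
    (Nat.pos_of_mul_pos_left (by omega : 0 < a * c)) fun x hx =>
      (hp x (mem_of_mem_erase hx) a ha (ne_of_mem_erase hx)).dvd_of_dvd_mul_left (hd x (mem_of_mem_erase hx))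
  rw [← add_sum_erase _ _ ha]
  have a7 := h7 a (dvd_mul_right _ _) (h1 a ha)
  have c7 := h7 c (dvd_mul_left _ _) (by rintro rfl; exact hN (by simpa using ha))
  obtain ⟨a, rfl⟩ := Nat.exists_eq_add_of_le' a7
  obtain ⟨c, rfl⟩ := Nat.exists_eq_add_of_le' c7
  rw [show (a + 7) * (c + 7) - 1 = a * c + 7 * a + 7 * c + 48 by rw [Nat.sub_eq_iff_eq_add N1.le]; ring]
  omega

end Cfsg.Agent.ReeW
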